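import Mathlib
set_option linter.all false

/-!
# Groups in which distinct Sylow 2-subgroups meet in a cyclic group

`CycInt G`. It passes to subgroups (`of_injective`) and quotients (`of_surjective`), and a noncyclic 2-subgroup lies in
exactly one Sylow 2-subgroup (`eq_of_le`).
-/

set_option autoImplicit false

namespace Cfsg.Agent.H335

open Subgroup

/-- distinct Sylow 2-subgroups meet in a cyclic group -/
def CycInt (G : Type*) [Group G] : Prop :=
  ∀ S T : Sylow 2 G, S ≠ T → IsCyclic ↥((S : Subgroup G) ⊓ (T : Subgroup G))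

variable {G K : Type*} [Group G] [Group K]

theorem isCyclic_of_le {P Q : Subgroup G} (h : P ≤ Q) (hQ : IsCyclic Q) : IsCyclic P :=
  isCyclic_of_injective (inclusion h) (inclusion_injective h)

theorem CycInt.eq_of_le (h : CycInt G) {P : Subgroup G} (hP : ¬ IsCyclic P) {S T : Sylow 2 G}
    (hS : P ≤ S) (hT : P ≤ T) : S = T := by
  by_contra hne
  exact hP (isCyclic_of_le (le_inf hS hT) (h S T hne))

theorem CycInt.of_injective (h : CycInt G) {f : K →* G} (hf : Function.Injective f) : CycInt K := by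
  intro S T hne
  obtain ⟨S', hS'⟩ := Sylow.exists_comap_eq_of_injective S hf
  obtain ⟨T', hT'⟩ := Sylow.exists_comap_eq_of_injective T hf
  have hne' : S' ≠ T' := by
    rintro rfl
    exact hne (Sylow.ext (hS'.symm.trans hT'))
  have h1 := h S' T' hne'
  have h2 : ∀ x : ↥((S : Subgroup K) ⊓ (T : Subgroup K)), f x ∈ (S' : Subgroup G) ⊓ (T' : Subgroup G) := by
    rintro ⟨x, hx1, hx2⟩
    have h3 : x ∈ (S' : Subgroup G).comap f := by rw [hS']; exact hx1
    have h4 : x ∈ (T' : Subgroup G).comap f := by rw [hT']; exact hx2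
    exact ⟨h3, h4⟩
  let g : ↥((S : Subgroup K) ⊓ (T : Subgroup K)) →* ↥((S' : Subgroup G) ⊓ (T' : Subgroup G)) :=
    (f.comp ((S : Subgroup K) ⊓ (T : Subgroup K)).subtype).codRestrict _ h2
  refine isCyclic_of_injective g ?_
  intro x y hxy
  apply Subtype.ext
  apply hf
  exact congrArg Subtype.val hxy

theorem CycInt.subgroup (h : CycInt G) (H : Subgroup G) : CycInt H :=
  h.of_injective H.subtype_injective

theorem mem_smul_sylow {S : Sylow 2 G} {g x : G} :
    x ∈ ((g • S : Sylow 2 G) : Subgroup G) ↔ g⁻¹ * x * g ∈ (S : Subgroup G) := by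
  rw [Sylow.coe_subgroup_smul, mem_pointwise_smul_iff_inv_smul_mem, ← map_inv, MulAut.smul_def,
    MulAut.conj_apply, inv_inv]

/-- A 2-subgroup `P` whose image lies in a Sylow 2-subgroup `S` of a quotient lies in a Sylow 2-subgroup over `S`. -/
theorem exists_sylow_over [Finite G] {f : G →* K} (hf : Function.Surjective f) {P : Subgroup G}
    (hP : IsPGroup 2 P) (S : Sylow 2 K) (hPS : P.map f ≤ S) :
    ∃ S' : Sylow 2 G, P ≤ S' ∧ (S' : Subgroup G).map f = S := by
  have : Fact (Nat.Prime 2) := ⟨Nat.prime_two⟩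
  have : Finite K := Finite.of_surjective f hf
  obtain ⟨S₁, hS₁⟩ := Sylow.mapSurjective_surjective hf 2 S
  have hS₁' : (S₁ : Subgroup G).map f = S := by rw [← hS₁]; rfl
  set M := (S : Subgroup K).comap f with hM
  have h1 : (S₁ : Subgroup G) ≤ M := by
    rw [hM, ← map_le_iff_le_comap, hS₁']
  have h2 : P ≤ M := by rwa [hM, ← map_le_iff_le_comap]
  have h3 : IsPGroup 2 (P.subgroupOf M) := hP.comap_of_injective _ M.subtype_injective
  obtain ⟨Q, hQ⟩ := h3.exists_le_sylow
  obtain ⟨m, hm⟩ := MulAction.exists_smul_eq M (S₁.subtype h1) Q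
  refine ⟨(m : G) • S₁, ?_, ?_⟩
  · intro x hx
    have h4 : (⟨x, h2 hx⟩ : M) ∈ (Q : Subgroup M) := hQ hx
    rw [← hm, mem_smul_sylow] at h4
    rw [mem_smul_sylow]
    exact h4
  · have hmS : f m ∈ (S : Subgroup K) := m.2
    apply le_antisymm
    · rintro _ ⟨x, hx, rfl⟩
      rw [SetLike.mem_coe, mem_smul_sylow] at hx
      have h5 : f ((m : G)⁻¹ * x * m) ∈ (S : Subgroup K) := by
        rw [← hS₁']
        exact ⟨_, hx, rfl⟩
      rw [map_mul, map_mul, map_inv] at h5
      have h7 := mul_mem (mul_mem hmS h5) (inv_mem hmS)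
      have h8 : f m * ((f m)⁻¹ * f x * f m) * (f m)⁻¹ = f x := by group
      rwa [h8] at h7
    · intro y hy
      have h5 : (f m)⁻¹ * y * f m ∈ (S : Subgroup K) := mul_mem (mul_mem (inv_mem hmS) hy) hmS
      rw [← hS₁'] at h5
      obtain ⟨x, hx, hxy⟩ := h5
      refine ⟨(m : G) * x * (m : G)⁻¹, ?_, ?_⟩
      · rw [SetLike.mem_coe, mem_smul_sylow]
        have h6 : (m : G)⁻¹ * (m * x * (m : G)⁻¹) * m = x := by group
        rw [h6]
        exact hx
      · rw [map_mul, map_mul, hxy, map_inv]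
        group

theorem CycInt.of_surjective [Finite G] (h : CycInt G) {f : G →* K} (hf : Function.Surjective f) : CycInt K := by
  have : Fact (Nat.Prime 2) := ⟨Nat.prime_two⟩
  have : Finite K := Finite.of_surjective f hf
  intro S T hne
  set D := (S : Subgroup K) ⊓ (T : Subgroup K) with hD
  -- a Sylow 2-subgroup of the preimage of `D`
  set M := D.comap f with hM
  let g : M →* D := (f.comp M.subtype).codRestrict D fun x => x.2
  have hg : Function.Surjective g := by
    rintro ⟨y, hy⟩
    obtain ⟨x, rfl⟩ := hf y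
    exact ⟨⟨x, hy⟩, rfl⟩
  obtain ⟨P⟩ : Nonempty (Sylow 2 M) := inferInstance
  have hDp : IsPGroup 2 D := S.2.to_le inf_le_left
  have hPtop : (P : Subgroup M).map g = ⊤ := by
    have h1 := (P.mapSurjective hg).is_maximal' (Q := ⊤) (hDp.to_subgroup ⊤) le_top
    exact h1.symm
  set P' : Subgroup G := (P : Subgroup M).map M.subtype with hP'
  have hP'2 : IsPGroup 2 P' := P.2.map _
  have hmap : P'.map f = D := by
    apply le_antisymm
    · rintro _ ⟨_, ⟨x, -, rfl⟩, rfl⟩
      exact x.2
    · intro y hy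
      have h1 : (⟨y, hy⟩ : D) ∈ (P : Subgroup M).map g := by rw [hPtop]; trivial
      obtain ⟨x, hx, hxy⟩ := h1
      exact ⟨x, ⟨x, hx, rfl⟩, congrArg Subtype.val hxy⟩
  obtain ⟨S', hPS, hS'⟩ := exists_sylow_over hf hP'2 S (hmap.le.trans inf_le_left)
  obtain ⟨T', hPT, hT'⟩ := exists_sylow_over hf hP'2 T (hmap.le.trans inf_le_right)
  have hne' : S' ≠ T' := by
    rintro rfl
    exact hne (Sylow.ext (hS'.symm.trans hT'))
  have hcyc : IsCyclic P' := isCyclic_of_le (le_inf hPS hPT) (h S' T' hne')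
  rw [← hmap]
  exact isCyclic_of_surjective (f.subgroupMap P') (f.subgroupMap_surjective P')

theorem CycInt.congr [Finite G] (h : CycInt G) (e : G ≃* K) : CycInt K :=
  h.of_surjective (f := e.toMonoidHom) e.surjective

end Cfsg.Agent.H335
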